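import Cfsg.Agent.Lib.Helper44.FW.Defs

/-!
# Project FW (S3211), package [ISO]

An involution `j` commuting with none of its other conjugates is isolated in every Sylow
2-subgroup containing it (dihedral argument).
-/

set_option autoImplicit false

namespace Cfsg.Agent.Lib.Helper75.FW

open Cfsg.Agent.Lib.Helper44.FW

universe u

theorem pkgIso : PkgIso.{u} := by
  intro G _ _ j hj H P hjP g htP
  by_contra hne
  have hj2 : j * j = 1 := by
    have h := pow_orderOf_eq_one j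
    rw [hj, pow_two] at h
    exact h
  have hjinv : j⁻¹ = j := inv_eq_of_mul_eq_one_right hj2
  have ht2 : g * j * g⁻¹ * (g * j * g⁻¹) = 1 := by
    have h : g * j * g⁻¹ * (g * j * g⁻¹) = g * (j * j) * g⁻¹ := by group
    rw [h, hj2]
    group
  have htinv : (g * j * g⁻¹)⁻¹ = g * j * g⁻¹ := inv_eq_of_mul_eq_one_right ht2
  have hnc : ¬ (g * j * g⁻¹ * j = j * (g * j * g⁻¹)) := fun h => hne (H g h)
  have hdinv : (j * (g * j * g⁻¹))⁻¹ = g * j * g⁻¹ * j := by
    rw [mul_inv_rev, hjinv, htinv]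
  have hd2 : (j * (g * j * g⁻¹)) ^ 2 ≠ 1 := by
    intro h
    apply hnc
    have h' : j * (g * j * g⁻¹) * (j * (g * j * g⁻¹)) = 1 := by
      rw [← pow_two]
      exact h
    rw [← hdinv]
    exact inv_eq_of_mul_eq_one_right h'
  have hinv : j * (j * (g * j * g⁻¹)) * j⁻¹ = (j * (g * j * g⁻¹))⁻¹ := by
    rw [hdinv, hjinv, ← mul_assoc, hj2, one_mul]
  have hdP : j * (g * j * g⁻¹) ∈ (P : Subgroup G) := mul_mem hjP htP
  obtain ⟨k0, hk0⟩ := P.isPGroup' ⟨j * (g * j * g⁻¹), hdP⟩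
  have hex : ∃ k, (j * (g * j * g⁻¹)) ^ 2 ^ k = 1 :=
    ⟨k0, by simpa using congrArg Subtype.val hk0⟩
  classical
  obtain ⟨k, hk, hmin⟩ : ∃ k, (j * (g * j * g⁻¹)) ^ 2 ^ k = 1 ∧
      ∀ m < k, (j * (g * j * g⁻¹)) ^ 2 ^ m ≠ 1 :=
    ⟨Nat.find hex, Nat.find_spec hex, fun m hm => Nat.find_min hex hm⟩
  rcases k with _ | _ | m
  · apply hd2
    rw [pow_zero, pow_one] at hk
    rw [hk, one_pow]
  · apply hd2
    rw [zero_add, pow_one] at hk
    exact hk
  · have hw4 : (j * (g * j * g⁻¹)) ^ 2 ^ m * (j * (g * j * g⁻¹)) ^ 2 ^ m *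
        ((j * (g * j * g⁻¹)) ^ 2 ^ m * (j * (g * j * g⁻¹)) ^ 2 ^ m) = 1 := by
      rw [← pow_add, ← pow_add, ← hk]
      congr 1
      ring
    have hw2 : (j * (g * j * g⁻¹)) ^ 2 ^ m * (j * (g * j * g⁻¹)) ^ 2 ^ m ≠ 1 := by
      intro h
      apply hmin (m + 1) (by omega)
      rw [← h, ← pow_add]
      congr 1
      ring
    have hjw : j * (j * (g * j * g⁻¹)) ^ 2 ^ m * j⁻¹ = ((j * (g * j * g⁻¹)) ^ 2 ^ m)⁻¹ := by
      rw [← conj_pow, hinv, inv_pow]
    generalize (j * (g * j * g⁻¹)) ^ 2 ^ m = w at hw4 hw2 hjw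
    rw [hjinv] at hjw
    have h1 : j * w = w⁻¹ * j := by
      have h : j * w = j * w * j * j := by rw [mul_assoc (j * w), hj2, mul_one]
      rw [h, hjw]
    have h2 : j * w⁻¹ = w * j := by
      have h : j * w⁻¹ = w * (w⁻¹ * j) * w⁻¹ := by group
      rw [h, ← h1]
      group
    have hww : w * w = w⁻¹ * w⁻¹ := by
      have h : w⁻¹ * w⁻¹ = (w * w)⁻¹ := by rw [mul_inv_rev]
      rw [h]
      exact (inv_eq_of_mul_eq_one_right hw4).symm
    have hcomm : w * j * w⁻¹ * j = j * (w * j * w⁻¹) := by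
      have hL : w * j * w⁻¹ * j = w * w := by
        rw [mul_assoc w j, h2, mul_assoc, mul_assoc, hj2, mul_one]
      have hR : j * (w * j * w⁻¹) = w⁻¹ * w⁻¹ := by
        rw [← mul_assoc, ← mul_assoc, h1, mul_assoc w⁻¹ j j, hj2, mul_one]
      rw [hL, hR, hww]
    have hfix := H w hcomm
    apply hw2
    have h3 : w * j = j * w := by
      have h : w * j = w * j * w⁻¹ * w := by group
      rw [h, hfix]
    rw [h1] at h3
    have h4 : w = w⁻¹ := mul_right_cancel h3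
    have h5 : w * w = w * w⁻¹ := by rw [← h4]
    rw [h5, mul_inv_cancel]

end Cfsg.Agent.Lib.Helper75.FW
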